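import Cfsg.Agent.H332.RC.GrSplit
import Cfsg.Agent.H688.FC.F2
import Cfsg.Agent.H106.RC.Use
import Cfsg.Agent.H380.RC.Rules

/-!
# S3510, row D, box GR(2): a graph involution of `Sp_4(q)`, the other members in `N` (helper332)

* `gr_plane` : some member leaves a nondegenerate plane invariant
* `gr_irr` : some member is irreducible
* `gr_two` : **GR(2)**
-/

set_option autoImplicit false
set_option linter.unusedSectionVars false

namespace Cfsg.Agent.H332.RC

open Cfsg Matrix MulAction
open Cfsg.Agent.H319.FC Cfsg.Agent.H193.FC Cfsg.Agent.H688.FC Cfsg.Agent.H523.FC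
open Cfsg.Agent.ClassicalGeometry.SympBasic Cfsg.Agent.ClassicalGeometry.SympAutSemi
open Cfsg.Agent.ClassicalGeometry.Sp4Graph Cfsg.Agent.ClassicalGeometry.Sp4GraphAut
open Cfsg.Agent.H106.RC Cfsg.Agent.H380.RC

variable {F : Type} [Field F] [CharP F 2]

/-! ### the long root subgroup -/

theorem transv_mul (v : V4 F) (c d : F) : (transv v c * transv v d : Sp4 F) = transv v (c + d) := by
  apply rho_injective
  ext1 x
  rw [rho_mul_apply, rho_transv, rho_transv, rho_transv, sympForm_add_left, sympForm_smul_left, sympForm_self,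
    mul_zero, add_zero]
  funext i
  simp only [Pi.add_apply, Pi.smul_apply, smul_eq_mul]
  ring

/-- the root subgroup in `G` -/
def rootG {G : Type} [Group G] {N : Subgroup G} (ε : Sp4 F ≃* N) (v : V4 F) : Subgroup G where
  carrier := {g | ∃ c : F, g = (ε (transv v c) : G)}
  mul_mem' := by
    rintro _ _ ⟨c, rfl⟩ ⟨d, rfl⟩
    exact ⟨c + d, by rw [← transv_mul, map_mul, Subgroup.coe_mul]⟩
  one_mem' := ⟨0, by
    have h : (transv v (0 : F) : Sp4 F) = 1 := by
      apply rho_injective
      ext1 x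
      rw [rho_transv, zero_mul, zero_smul, add_zero, rho_one_apply]
    rw [h, map_one, Subgroup.coe_one]⟩
  inv_mem' := by
    rintro _ ⟨c, rfl⟩
    refine ⟨c, ?_⟩
    rw [inv_eq_iff_mul_eq_one, ← Subgroup.coe_mul, ← map_mul, transv_mul, CharTwo.add_self_eq_zero]
    have h : (transv v (0 : F) : Sp4 F) = 1 := by
      apply rho_injective
      ext1 x
      rw [rho_transv, zero_mul, zero_smul, add_zero, rho_one_apply]
    rw [h, map_one, Subgroup.coe_one]

variable {G : Type} [Group G] {N : Subgroup G} {ε : Sp4 F ≃* N}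

theorem rootG_sq {v : V4 F} {g : G} (hg : g ∈ rootG ε v) : g ^ 2 = 1 := by
  obtain ⟨c, rfl⟩ := hg
  have h : (transv v (0 : F) : Sp4 F) = 1 := by
    apply rho_injective
    ext1 x
    rw [rho_transv, zero_mul, zero_smul, add_zero, rho_one_apply]
  rw [pow_two, ← Subgroup.coe_mul, ← map_mul, transv_mul, CharTwo.add_self_eq_zero, h, map_one, Subgroup.coe_one]

theorem rootG_two (v : V4 F) : IsPGroup 2 (rootG ε v) := by
  intro g
  refine ⟨1, ?_⟩
  rw [pow_one]
  exact Subtype.ext (rootG_sq g.2)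

theorem rootG_conj {v : V4 F} {X : Sp4 F} {a : F} (hX : rho 2 F X v = a • v) {u : G} (hu : u ∈ rootG ε v) :
    (ε X : G) * u * (ε X : G)⁻¹ ∈ rootG ε v := by
  obtain ⟨c, rfl⟩ := hu
  refine ⟨a ^ 2 * c, ?_⟩
  have h1 : X * transv v c * X⁻¹ = transv v (a ^ 2 * c) := by
    rw [conj_transv', hX]
    apply rho_injective
    ext1 x
    rw [rho_transv, rho_transv, sympForm_smul_right, smul_smul]
    congr 2
    ring
  rw [← h1, map_mul, map_mul, map_inv]
  rfl

theorem rootG_cmm {v : V4 F} {X : Sp4 F} {a : F} (hX : rho 2 F X v = a • v) (ha : a ≠ 1) :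
    (ε (transv v 1) : G) ∈ cmm (rootG ε v) (ε X : G) := by
  have h0 : 1 + a ^ 2 ≠ 0 := by
    intro h
    apply ha
    have h22 : (2 : F) = 0 := CharTwo.two_eq_zero
    have h3 : (a - 1) ^ 2 = 0 := by linear_combination h - a * h22
    exact sub_eq_zero.1 (pow_eq_zero_iff two_ne_zero |>.1 h3)
  have h1 : transv v (1 : F) = transv v (1 + a ^ 2)⁻¹ * X * (transv v (1 + a ^ 2)⁻¹)⁻¹ * X⁻¹ := by
    have h2 : (transv v (1 + a ^ 2)⁻¹ : Sp4 F)⁻¹ = transv v (1 + a ^ 2)⁻¹ := by
      rw [inv_eq_iff_mul_eq_one, transv_mul, CharTwo.add_self_eq_zero]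
      apply rho_injective
      ext1 x
      rw [rho_transv, zero_mul, zero_smul, add_zero, rho_one_apply]
    have h3 : X * transv v (1 + a ^ 2)⁻¹ * X⁻¹ = transv v (a ^ 2 * (1 + a ^ 2)⁻¹) := by
      rw [conj_transv', hX]
      apply rho_injective
      ext1 x
      rw [rho_transv, rho_transv, sympForm_smul_right, smul_smul]
      congr 2
      ring
    rw [h2, mul_assoc, mul_assoc, ← mul_assoc X, h3, transv_mul]
    congr 1
    have : (1 + a ^ 2)⁻¹ + a ^ 2 * (1 + a ^ 2)⁻¹ = (1 + a ^ 2) * (1 + a ^ 2)⁻¹ := by ring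
    rw [this, mul_inv_cancel₀ h0]
  have h4 : (ε (transv v 1) : G) = (ε (transv v (1 + a ^ 2)⁻¹) : G) * (ε X : G) * (ε (transv v (1 + a ^ 2)⁻¹) : G)⁻¹ *
      (ε X : G)⁻¹ := by
    rw [h1, map_mul, map_mul, map_mul, map_inv, map_inv]
    rfl
  rw [h4]
  exact mem_cmm ⟨_, rfl⟩

variable {Ω : Type} [MulAction G Ω] {ι : Type} {x : ι → G} {r : ι → ℕ}

/-- **End of the split case**: a cover by elements of odd prime order of `N` with a common eigenvector `v`, no
eigenvalue `1`. -/
theorem dead_eig [Finite G] [Nonempty Ω] [Finite ι] (hE : Env G Ω N) (hr : ∀ i, (r i).Prime) (hr2 : ∀ i, r i ≠ 2)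
    (hx : ∀ i, x i ^ r i = 1) (hc : ∀ i j, x i * x j = x j * x i) (hcov : Cov Ω x) {X : ι → Sp4 F}
    (hX : ∀ i, x i = (ε (X i) : G)) {v : V4 F} (hv : v ≠ 0) (hev : ∀ i, ∃ a : F, a ≠ 1 ∧ rho 2 F (X i) v = a • v) :
    False := by
  have : Fact (Nat.Prime 2) := ⟨Nat.prime_two⟩
  have hco : ∀ i, (r i).Coprime (Nat.card (rootG ε v)) := by
    intro i
    obtain ⟨n, hn⟩ := (IsPGroup.iff_card (p := 2) (G := rootG ε v)).1 (rootG_two v)
    rw [hn]
    exact Nat.Coprime.pow_right _ ((Nat.coprime_primes (hr i) Nat.prime_two).2 (hr2 i))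
  refine not_cov_point hE hr hx hc (U := rootG ε v) hcov (fun i u hu => ?_) (rootG_two v).isNilpotent hco
    (y := (ε (transv v 1) : G)) ?_ (fun i => ?_)
  · obtain ⟨a, -, ha⟩ := hev i
    rw [hX]
    exact rootG_conj ha hu
  · intro h
    have h1 : ε (transv v 1) = 1 := Subtype.ext h
    rw [map_eq_one_iff ε ε.injective] at h1
    exact Cfsg.Agent.ClassicalGeometry.SympAutExists.transv_ne_one hv one_ne_zero h1
  · obtain ⟨a, ha1, ha⟩ := hev i
    rw [hX]
    exact rootG_cmm ha ha1

/-! ### replacing the graph involution -/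

/-- replacing `x i0` by a power of `c (δ c)⁻¹` -/
theorem cov_repl [DecidableEq ι] (hcov : Cov Ω x) {i0 : ι} {δ : MulAut (Sp4 F)}
    (hxδ : ∀ n, x i0 * (ε n : G) * (x i0)⁻¹ = (ε (δ n) : G)) {c : Sp4 F}
    (hc : ∀ j, j ≠ i0 → (ε c : G) * x j = x j * (ε c : G)) (m : ℕ) :
    Cov Ω (Function.update x i0 (ε ((c * (δ c)⁻¹) ^ m) : G)) := by
  have h1 := hcov.mv_comm i0 hc
  have h2 : (ε c : G) * x i0 * (ε c : G)⁻¹ * (x i0)⁻¹ = (ε (c * (δ c)⁻¹) : G) := by
    have h3 := hxδ c⁻¹
    rw [map_inv ε, map_inv δ, map_inv ε, Subgroup.coe_inv, Subgroup.coe_inv] at h3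
    rw [mul_assoc, mul_assoc, ← mul_assoc (x i0), h3, map_mul, map_inv]
    rfl
  rw [h2] at h1
  have h4 := h1.update i0 (y := (ε ((c * (δ c)⁻¹) ^ m) : G)) (fun ω hω _ => by
    rw [Function.update_self] at hω
    rw [map_pow, Subgroup.coe_pow]
    have h5 : (ε (c * (δ c)⁻¹) : G) ∈ stabilizer G ω := hω
    exact (stabilizer G ω).pow_mem h5 m)
  rwa [Function.update_idem] at h4

/-- a power of prime order -/
theorem exists_prime_pow {H : Type*} [Group H] [Finite H] {y : H} (hy : y ≠ 1) :
    ∃ (m p : ℕ), p.Prime ∧ p ∣ orderOf y ∧ orderOf (y ^ m) = p := by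
  obtain ⟨p, hp, hpd⟩ := Nat.exists_prime_and_dvd (n := orderOf y) (fun h => hy (orderOf_eq_one_iff.1 h))
  refine ⟨orderOf y / p, p, hp, hpd, ?_⟩
  have hpos := orderOf_pos y
  rw [orderOf_pow' y (Nat.div_pos (Nat.le_of_dvd hpos hpd) hp.pos).ne', Nat.gcd_eq_right (Nat.div_dvd_of_dvd hpd),
    Nat.div_div_self hpd hpos.ne']

/-- the subgroup of prime order of a cyclic group -/
theorem mem_zp {H : Type*} [Group H] [Finite H] {c y w : H} (hy : y ∈ Subgroup.zpowers c)
    (hw : w ∈ Subgroup.zpowers c) {p : ℕ} (hp : p.Prime) (hyp : orderOf y = p) (hwp : orderOf w = p) :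
    w ∈ Subgroup.zpowers y := by
  have := Fact.mk hp
  obtain ⟨n, hn⟩ : p ∣ orderOf c := hyp ▸ orderOf_dvd_of_mem_zpowers hy
  have hp0 : (p : ℤ) ≠ 0 := by exact_mod_cast hp.ne_zero
  have key : ∀ u ∈ Subgroup.zpowers c, orderOf u = p → u ∈ Subgroup.zpowers (c ^ n) := by
    rintro _ ⟨k, rfl⟩ hu
    have h1 : c ^ (k * p) = 1 := by
      rw [_root_.zpow_mul, zpow_natCast, ← hu]
      exact pow_orderOf_eq_one _
    obtain ⟨t, ht⟩ := orderOf_dvd_iff_zpow_eq_one.2 h1
    rw [hn] at ht
    push_cast at ht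
    have h2 : k = n * t := by
      apply mul_right_cancel₀ hp0
      linear_combination ht
    refine ⟨t, ?_⟩
    change (c ^ n) ^ t = c ^ k
    rw [h2, _root_.zpow_mul, zpow_natCast]
  have hpos := orderOf_pos c
  have hcard : Nat.card (Subgroup.zpowers (c ^ n)) = p := by
    have hn0 : n ≠ 0 := by
      rintro rfl
      rw [hn, mul_zero] at hpos
      exact lt_irrefl _ hpos
    rw [Nat.card_zpowers, orderOf_pow' c hn0, hn, Nat.gcd_eq_right (Dvd.intro_left p rfl),
      Nat.mul_div_cancel _ (Nat.pos_of_ne_zero hn0)]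
  have hy1 : (⟨y, key y hy hyp⟩ : Subgroup.zpowers (c ^ n)) ≠ 1 := by
    intro h
    have h1 : y = 1 := congrArg Subtype.val h
    rw [h1, orderOf_one] at hyp
    exact hp.one_lt.ne hyp
  obtain ⟨t, ht⟩ := mem_zpowers_of_prime_card hcard hy1 (g' := ⟨w, key w hw hwp⟩)
  refine ⟨t, ?_⟩
  have := congrArg Subtype.val ht
  simpa using this

/-- the graph involution has order two -/
theorem r_eq_two [Finite F] (hq : 4 ≤ Nat.card F) (hx : PF x r) {i0 : ι} {δ : MulAut (Sp4 F)}
    (hδ : δ ∉ (conjHom 2 F).range) (hxδ : ∀ n, x i0 * (ε n : G) * (x i0)⁻¹ = (ε (δ n) : G)) :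
    r i0 = 2 ∧ ∀ X, δ (δ X) = X := by
  have hpow : ∀ (n : ℕ) (X : Sp4 F), x i0 ^ n * (ε X : G) * (x i0 ^ n)⁻¹ = (ε ((δ ^ n) X) : G) := by
    intro n
    induction n with
    | zero => intro X; simp
    | succ n ih =>
      intro X
      rw [pow_succ' δ, MulAut.mul_apply, ← hxδ, ← ih, pow_succ']
      group
  have hone : δ ^ r i0 = 1 := by
    ext1 X
    apply ε.injective
    apply Subtype.ext
    rw [← hpow, hx.pow]
    simp
  have h2 : r i0 = 2 := by
    by_contra hne
    obtain ⟨k, hk⟩ := (hx.prime i0).odd_of_ne_two hne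
    apply hδ
    rw [hk, pow_succ, pow_mul] at hone
    have h3 : δ ^ 2 ∈ (conjHom 2 F).range := by
      rw [pow_two]
      exact Subgroup.mul_self_mem_of_index_two (index_P hq) δ
    have h4 : δ = ((δ ^ 2) ^ k)⁻¹ := (inv_eq_of_mul_eq_one_right hone).symm
    rw [h4]
    exact Subgroup.inv_mem _ (Subgroup.pow_mem _ h3 k)
  refine ⟨h2, fun X => ?_⟩
  have h5 := congrArg (fun α : MulAut (Sp4 F) => α X) hone
  rw [h2, pow_two] at h5
  exact h5

/-- **GR(2)**: the members except the graph involution are in `N`. -/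
theorem gr_two [Finite F] [Finite G] [Nonempty Ω] [Finite ι] (hq : 4 ≤ Nat.card F) (hE : Env G Ω N)
    (ε : Sp4 F ≃* N) (hx : PF x r) (hcov : Cov Ω x) (i0 : ι) {δ : MulAut (Sp4 F)} (hδ : δ ∉ (conjHom 2 F).range)
    (hxδ : ∀ n, x i0 * (ε n : G) * (x i0)⁻¹ = (ε (δ n) : G)) (hlin : ∀ j, j ≠ i0 → x j ∈ N)
    (hirr : ∀ z : Sp4 F, z ≠ 1 → Odd (orderOf z) → Irr4 z → ∃ d : Sp4 F, z * d = d * z ∧ δ d ≠ d)
    (hM2O : ∀ (κ : Type) (_ : Finite κ) (y : κ → G) (s : κ → ℕ), PF y s → Cov Ω y → (∀ i, y i ∈ N) →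
      (∀ i, s i ≠ 2) → False) : False := by
  classical
  obtain ⟨hr2, hδ2⟩ := r_eq_two hq hx hδ hxδ
  have hrj : ∀ j, j ≠ i0 → r j ≠ 2 := fun j hj h => hj (hx.inj (h.trans hr2.symm))
  -- the matrices of the other members
  have hX : ∀ j, ∃ X : Sp4 F, j ≠ i0 → x j = (ε X : G) := by
    intro j
    by_cases hj : j = i0
    · exact ⟨1, fun h => absurd hj h⟩
    · exact ⟨ε.symm ⟨x j, hlin j hj⟩, fun _ => by rw [ε.apply_symm_apply]⟩
  choose X hX using hX
  have hXpow : ∀ j, j ≠ i0 → X j ^ r j = 1 := by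
    intro j hj
    apply ε.injective
    apply Subtype.ext
    rw [map_pow, Subgroup.coe_pow, ← hX j hj, hx.pow, map_one, Subgroup.coe_one]
  have hX1 : ∀ j, j ≠ i0 → X j ≠ 1 := by
    intro j hj h
    apply hx.ne j
    rw [hX j hj, h, map_one, Subgroup.coe_one]
  have hXord : ∀ j, j ≠ i0 → orderOf (X j) = r j := by
    intro j hj
    have := Fact.mk (hx.prime j)
    exact orderOf_eq_prime (hXpow j hj) (hX1 j hj)
  have hXodd : ∀ j, j ≠ i0 → Odd (orderOf (X j)) := by
    intro j hj
    rw [hXord j hj]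
    exact (hx.prime j).odd_of_ne_two (hrj j hj)
  have hXδ : ∀ j, j ≠ i0 → δ (X j) = X j := by
    intro j hj
    apply ε.injective
    apply Subtype.ext
    rw [← hxδ, ← hX j hj, hx.comm i0 j, mul_inv_cancel_right]
  have hXc : ∀ j k, j ≠ i0 → k ≠ i0 → X j * X k = X k * X j := by
    intro j k hj hk
    apply ε.injective
    apply Subtype.ext
    rw [map_mul, map_mul, Subgroup.coe_mul, Subgroup.coe_mul, ← hX j hj, ← hX k hk, hx.comm]
  by_cases hone : ∀ j, j = i0
  · apply hx.ne i0
    apply hE.single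
    intro ω
    obtain ⟨i, hi⟩ := hcov ω
    rwa [hone i] at hi
  push Not at hone
  obtain ⟨j0, hj0⟩ := hone
  have hz := hXδ j0 hj0
  have hz1 := hX1 j0 hj0
  have hzo := hXodd j0 hj0
  by_cases hI : Irr4 (X j0)
  · -- the irreducible case
    obtain ⟨d, hd, hdδ⟩ := hirr _ hz1 hzo hI
    obtain ⟨c, hcent, hco, -, -, -⟩ := stF2 _ hz1 hzo hI
    have hmem : ∀ y : Sp4 F, y * X j0 = X j0 * y → y ∈ Subgroup.zpowers c := by
      intro y hy
      rw [← hcent, Subgroup.mem_centralizer_singleton_iff]
      exact hy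
    have hcomm : ∀ y ∈ Subgroup.zpowers c, ∀ y' ∈ Subgroup.zpowers c, y * y' = y' * y := by
      rintro _ ⟨a, rfl⟩ _ ⟨b, rfl⟩
      exact zpow_mul_comm c a b
    have hdm := hmem d hd.symm
    have hXm : ∀ j, j ≠ i0 → X j ∈ Subgroup.zpowers c := fun j hj => hmem _ (hXc j j0 hj hj0)
    have hδd : δ d * X j0 = X j0 * δ d := by
      have h1 := congrArg δ hd.symm
      rwa [map_mul, map_mul, hz] at h1
    obtain ⟨y, hy⟩ : ∃ y, y = d * (δ d)⁻¹ := ⟨_, rfl⟩
    have hy1 : y ≠ 1 := by
      intro h
      apply hdδ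
      rw [hy, mul_inv_eq_one] at h
      exact h.symm
    have hym : y ∈ Subgroup.zpowers c := by
      rw [hy]
      exact Subgroup.mul_mem _ hdm (Subgroup.inv_mem _ (hmem _ hδd))
    obtain ⟨m, p, hp, hpd, hm⟩ := exists_prime_pow hy1
    have hcov' := cov_repl hcov hxδ (c := d) (fun j hj => by
      rw [hX j hj, ← Subgroup.coe_mul, ← Subgroup.coe_mul, ← map_mul, ← map_mul, hcomm d hdm _ (hXm j hj)]) m
    rw [← hy] at hcov'
    have hp2 : p ≠ 2 := by
      rintro rfl
      have h1 : 2 ∣ orderOf c := hpd.trans (orderOf_dvd_of_mem_zpowers hym)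
      obtain ⟨k, hk⟩ := hco
      omega
    have hymm : y ^ m ∈ Subgroup.zpowers c := Subgroup.pow_mem _ hym m
    have hym1 : y ^ m ≠ 1 := by
      intro h
      rw [h, orderOf_one] at hm
      exact hp.one_lt.ne hm
    by_cases hpj : ∃ j, j ≠ i0 ∧ r j = p
    · -- the group of order `p` of the cyclic group
      obtain ⟨j, hj, hjp⟩ := hpj
      have hcov'' : Cov Ω (fun i : {i // i ≠ i0} => x i) := by
        intro ω
        obtain ⟨i, hi⟩ := hcov' ω
        by_cases hii : i = i0
        · subst hii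
          rw [Function.update_self] at hi
          refine ⟨⟨j, hj⟩, ?_⟩
          -- `X j` is a power of `y ^ m`
          obtain ⟨t, ht⟩ := mem_zp hymm (hXm j hj) hp hm ((hXord j hj).trans hjp)
          change x j • ω = ω
          have h1 : x j = (ε (y ^ m) : G) ^ t := by
            rw [hX j hj, ← ht]
            change ((ε ((y ^ m) ^ t) : N) : G) = _
            rw [map_zpow, Subgroup.coe_zpow]
          rw [h1]
          exact (stabilizer G ω).zpow_mem hi t
        · rw [Function.update_of_ne hii] at hi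
          exact ⟨⟨i, hii⟩, hi⟩
      refine hM2O _ inferInstance (fun i : {i // i ≠ i0} => x i) (fun i => r i) ?_ hcov'' (fun i => hlin i i.2)
        (fun i => hrj i i.2)
      exact ⟨fun i => hx.prime i, fun a b h => Subtype.ext (hx.inj h), fun i => hx.pow i, fun i => hx.ne i,
        fun i j => hx.comm i j⟩
    · push Not at hpj
      refine hM2O ι inferInstance _ (Function.update r i0 p) ?_ hcov' ?_ ?_
      · refine ⟨?_, ?_, ?_, ?_, ?_⟩
        · intro i
          by_cases hi : i = i0
          · subst hi; rw [Function.update_self]; exact hp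
          · rw [Function.update_of_ne hi]; exact hx.prime i
        · intro i j hij
          by_cases hi : i = i0
          · subst hi
            by_cases hj : j = i
            · exact hj.symm
            · rw [Function.update_self, Function.update_of_ne hj] at hij
              exact absurd hij.symm (hpj j hj)
          · by_cases hj : j = i0
            · subst hj
              rw [Function.update_self, Function.update_of_ne hi] at hij
              exact absurd hij (hpj i hi)
            · rw [Function.update_of_ne hi, Function.update_of_ne hj] at hij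
              exact hx.inj hij
        · intro i
          by_cases hi : i = i0
          · subst hi
            rw [Function.update_self, Function.update_self, ← Subgroup.coe_pow, ← map_pow, ← hm,
              pow_orderOf_eq_one, map_one, Subgroup.coe_one]
          · rw [Function.update_of_ne hi, Function.update_of_ne hi]; exact hx.pow i
        · intro i
          by_cases hi : i = i0
          · subst hi
            rw [Function.update_self]
            intro h
            apply hym1
            apply ε.injective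
            rw [map_one]
            exact Subtype.ext h
          · rw [Function.update_of_ne hi]; exact hx.ne i
        · have hcj : ∀ j, j ≠ i0 → (ε (y ^ m) : G) * x j = x j * (ε (y ^ m) : G) := by
            intro j hj
            rw [hX j hj, ← Subgroup.coe_mul, ← Subgroup.coe_mul, ← map_mul, ← map_mul, hcomm _ hymm _ (hXm j hj)]
          intro i j
          by_cases hi : i = i0
          · subst hi
            by_cases hj : j = i
            · rw [hj]
            · rw [Function.update_self, Function.update_of_ne hj]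
              exact hcj j hj
          · by_cases hj : j = i0
            · subst hj
              rw [Function.update_self, Function.update_of_ne hi]
              exact (hcj i hi).symm
            · rw [Function.update_of_ne hi, Function.update_of_ne hj]
              exact hx.comm i j
      · intro i
        by_cases hi : i = i0
        · subst hi; rw [Function.update_self]; exact (ε (y ^ m)).2
        · rw [Function.update_of_ne hi]; exact hlin i hi
      · intro i
        by_cases hi : i = i0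
        · subst hi; rw [Function.update_self]; exact hp2
        · rw [Function.update_of_ne hi]; exact hrj i hi
  · -- the split case
    obtain ⟨v1, v2, hv12, hzv1, hzv2⟩ := stF3 (r j0) (X j0) (hx.prime j0) (hrj j0 hj0) (hXpow j0 hj0)
      (fun v hv => no_fix hq hδ hz hz1 hzo hv) (no_quad hq hδ hz hz1 hzo) hI
    obtain ⟨k, a, b, hk, hreg⟩ := split hq hδ hδ2 hz hz1 hzo hv12 hzv1 hzv2
    have hdiag : ∀ y : Sp4 F, y * X j0 = X j0 * y → ∃ a' b' : Fˣ, y = k * tor a' b' * k⁻¹ := by
      intro y hy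
      have h1 : (k⁻¹ * y * k) * tor a b = tor a b * (k⁻¹ * y * k) := by
        have h2 : tor a b = k⁻¹ * X j0 * k := by rw [hk]; group
        rw [h2]
        calc k⁻¹ * y * k * (k⁻¹ * X j0 * k) = k⁻¹ * (y * X j0) * k := by group
          _ = k⁻¹ * (X j0 * y) * k := by rw [hy]
          _ = _ := by group
      obtain ⟨a', b', h3⟩ := cent_tor hreg h1
      refine ⟨a', b', ?_⟩
      rw [← h3]
      group
    have hdc : ∀ a' b' a'' b'' : Fˣ, (k * tor a' b' * k⁻¹) * (k * tor a'' b'' * k⁻¹) =
        (k * tor a'' b'' * k⁻¹) * (k * tor a' b' * k⁻¹) := by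
      intro a' b' a'' b''
      calc (k * tor a' b' * k⁻¹) * (k * tor a'' b'' * k⁻¹) = k * (tor a' b' * tor a'' b'') * k⁻¹ := by group
        _ = k * (tor a'' b'' * tor a' b') * k⁻¹ := by rw [tor_comm]
        _ = _ := by group
    have hdpow : ∀ (a' b' : Fˣ) (n : ℕ), (k * tor a' b' * k⁻¹) ^ n = k * tor (a' ^ n) (b' ^ n) * k⁻¹ := by
      intro a' b' n
      rw [conj_pow, tor_pow]
    -- the element `d` with a fixed vector
    obtain ⟨d, hd⟩ : ∃ d, d = k * tor a 1 * k⁻¹ := ⟨_, rfl⟩
    have ha1 : a ≠ 1 := by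
      rintro rfl
      exact hreg.h1 (by rw [inv_one])
    have hunit : ∀ u : Fˣ, Odd (orderOf u) := by
      intro u
      have hF := Fintype.ofFinite F
      have h1 : orderOf u ∣ Nat.card Fˣ := orderOf_dvd_natCard u
      have h2 : Nat.card Fˣ + 1 = Nat.card F := by
        rw [Nat.card_units, Nat.sub_add_cancel Nat.card_pos]
      have h3 : Even (Nat.card F) := by
        rw [even_iff_two_dvd, ← CharP.cast_eq_zero_iff F 2, Nat.card_eq_fintype_card]
        exact Nat.cast_card_eq_zero F
      refine Odd.of_dvd_nat ?_ h1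
      rw [← h2] at h3
      exact (Nat.even_add_one.1 h3 |> Nat.not_even_iff_odd.1)
    have hd1 : d ≠ 1 := by
      intro h
      apply ha1
      rw [hd, mul_inv_eq_one, mul_eq_left] at h
      have h1 := tor_e1 (F := F) a 1
      rw [h, rho_one_apply] at h1
      have h2 := congrFun h1 (.inl 0)
      simp [e1] at h2
      exact Units.ext h2.symm
    have hdo : Odd (orderOf d) := by
      refine Odd.of_dvd_nat (hunit a) (orderOf_dvd_of_pow_eq_one ?_)
      rw [hd, hdpow, pow_orderOf_eq_one, one_pow, tor_one, mul_one, mul_inv_cancel]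
    have hdf : rho 2 F d (rho 2 F k (e2 F)) = rho 2 F k (e2 F) := by
      apply conj_fix hd
      rw [tor_e2, Units.val_one, one_smul]
    have hdδ : δ d ≠ d := by
      intro h
      exact e2_ne (rho_inj_zero (no_fix hq hδ h hd1 hdo hdf))
    have hdz : d * X j0 = X j0 * d := by
      rw [hd, hk, hdc]
    have hδd : δ d * X j0 = X j0 * δ d := by
      have h1 := congrArg δ hdz
      rwa [map_mul, map_mul, hz] at h1
    obtain ⟨y, hy⟩ : ∃ y, y = d * (δ d)⁻¹ := ⟨_, rfl⟩
    have hy1 : y ≠ 1 := by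
      intro h
      apply hdδ
      rw [hy, mul_inv_eq_one] at h
      exact h.symm
    have hyz : y * X j0 = X j0 * y := by
      have h1 : (δ d)⁻¹ * X j0 = X j0 * (δ d)⁻¹ := by
        rw [inv_mul_eq_iff_eq_mul, ← mul_assoc, hδd, mul_inv_cancel_right]
      rw [hy, mul_assoc, h1, ← mul_assoc, hdz, mul_assoc]
    obtain ⟨m, p, hp, hpd, hm⟩ := exists_prime_pow hy1
    obtain ⟨a1, b1, hyab⟩ := hdiag y hyz
    choose A B hAB using fun j (hj : j ≠ i0) => hdiag (X j) (hXc j j0 hj hj0)
    have hcov' := cov_repl hcov hxδ (c := d) (fun j hj => by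
      rw [hX j hj, ← Subgroup.coe_mul, ← Subgroup.coe_mul, ← map_mul, ← map_mul, hAB j hj, hd, hdc]) m
    rw [← hy] at hcov'
    have hym : y ^ m = k * tor (a1 ^ m) (b1 ^ m) * k⁻¹ := by rw [hyab, hdpow]
    have hym1 : y ^ m ≠ 1 := by
      intro h
      rw [h, orderOf_one] at hm
      exact hp.one_lt.ne hm
    have hp2 : p ≠ 2 := by
      intro h2
      have h3 : y ^ (orderOf a1 * orderOf b1) = 1 := by
        rw [hyab, hdpow, pow_mul, pow_orderOf_eq_one, one_pow, mul_comm, pow_mul, pow_orderOf_eq_one, one_pow,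
          tor_one, mul_one, mul_inv_cancel]
      have h4 : p ∣ orderOf a1 * orderOf b1 := hpd.trans (orderOf_dvd_of_pow_eq_one h3)
      rw [h2] at h4
      obtain ⟨t, ht⟩ := (hunit a1).mul (hunit b1)
      omega
    -- the common eigenvector
    have hev : ∃ v : V4 F, v ≠ 0 ∧ (∀ a' b' : Fˣ, ∃ c : F, rho 2 F (k * tor a' b' * k⁻¹) v = c • v) ∧
        rho 2 F (y ^ m) v ≠ v := by
      by_cases h1 : a1 ^ m = 1
      · refine ⟨rho 2 F k (e2 F), fun h => e2_ne (rho_inj_zero h), fun a' b' => ⟨b', ?_⟩, ?_⟩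
        · rw [rho_mul_apply, ← rho_mul_apply k⁻¹, inv_mul_cancel, rho_one_apply, rho_mul_apply, tor_e2, rho_smul]
        · intro h
          rw [hym, rho_mul_apply, ← rho_mul_apply k⁻¹, inv_mul_cancel, rho_one_apply, rho_mul_apply, tor_e2] at h
          have h2 := (rho 2 F k).injective h
          have h3 := congrFun h2 (.inl 1)
          simp [e2, -Units.val_pow_eq_pow_val] at h3
          apply hym1
          rw [hym, h1, h3, tor_one, mul_one, mul_inv_cancel]
      · refine ⟨rho 2 F k (e1 F), fun h => e1_ne (rho_inj_zero h), fun a' b' => ⟨a', ?_⟩, ?_⟩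
        · rw [rho_mul_apply, ← rho_mul_apply k⁻¹, inv_mul_cancel, rho_one_apply, rho_mul_apply, tor_e1, rho_smul]
        · intro h
          rw [hym, rho_mul_apply, ← rho_mul_apply k⁻¹, inv_mul_cancel, rho_one_apply, rho_mul_apply, tor_e1] at h
          have h2 := (rho 2 F k).injective h
          have h3 := congrFun h2 (.inl 0)
          simp [e1, -Units.val_pow_eq_pow_val] at h3
          exact h1 h3
    obtain ⟨v, hv, hve, hvy⟩ := hev
    -- the family
    have hXX : ∀ i, Function.update x i0 (ε (y ^ m) : G) i = (ε (Function.update X i0 (y ^ m) i) : G) := by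
      intro i
      by_cases hi : i = i0
      · subst hi; rw [Function.update_self, Function.update_self]
      · rw [Function.update_of_ne hi, Function.update_of_ne hi, hX i hi]
    have hform : ∀ i, ∃ a' b' : Fˣ, Function.update X i0 (y ^ m) i = k * tor a' b' * k⁻¹ := by
      intro i
      by_cases hi : i = i0
      · subst hi; rw [Function.update_self]; exact ⟨_, _, hym⟩
      · rw [Function.update_of_ne hi]; exact ⟨_, _, hAB i hi⟩
    refine dead_eig (r := Function.update r i0 p) hE ?_ ?_ ?_ ?_ hcov' hXX hv ?_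
    · intro i
      by_cases hi : i = i0
      · subst hi; rw [Function.update_self]; exact hp
      · rw [Function.update_of_ne hi]; exact hx.prime i
    · intro i
      by_cases hi : i = i0
      · subst hi; rw [Function.update_self]; exact hp2
      · rw [Function.update_of_ne hi]; exact hrj i hi
    · intro i
      by_cases hi : i = i0
      · subst hi
        rw [Function.update_self, Function.update_self, ← Subgroup.coe_pow, ← map_pow, ← hm,
          pow_orderOf_eq_one, map_one, Subgroup.coe_one]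
      · rw [Function.update_of_ne hi, Function.update_of_ne hi]; exact hx.pow i
    · intro i j
      obtain ⟨a', b', h1⟩ := hform i
      obtain ⟨a'', b'', h2⟩ := hform j
      rw [hXX i, hXX j, ← Subgroup.coe_mul, ← Subgroup.coe_mul, ← map_mul, ← map_mul, h1, h2, hdc]
    · intro i
      obtain ⟨a', b', h1⟩ := hform i
      obtain ⟨c, hc⟩ := hve a' b'
      refine ⟨c, ?_, by rw [h1]; exact hc⟩
      rintro rfl
      rw [one_smul, ← h1] at hc
      by_cases hi : i = i0
      · subst hi
        rw [Function.update_self] at hc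
        exact hvy hc
      · rw [Function.update_of_ne hi] at hc
        exact hv (no_fix hq hδ (hXδ i hi) (hX1 i hi) (hXodd i hi) hc)

end Cfsg.Agent.H332.RC
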