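import Cfsg.Agent.H332.RC.GrFix
import Cfsg.Agent.H193.FC.TorTwo
import Cfsg.Agent.H523.FC.FThree

/-!
# S3510, row D, box GR: elements fixed by a graph involution which leave a nondegenerate plane invariant are split
(helper332)

* `trace_rel` : a graph involution `δ` has an automorphism `φ` with `φ (φ (a ^ 2)) = a` and `tr z = φ (tr (γ z))` for
  `δ z = z`
* `exists_root` : the computation in the field
* `split` : if `z` leaves a nondegenerate plane invariant, then `z` is diagonal in a symplectic basis over `F` with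
  different eigenvalues
-/

set_option autoImplicit false
set_option linter.unusedSectionVars false
set_option linter.unusedSimpArgs false

namespace Cfsg.Agent.H332.RC

open Cfsg Matrix
open Cfsg.Agent.H319.FC Cfsg.Agent.H193.FC
open Cfsg.Agent.ClassicalGeometry.SympBasic Cfsg.Agent.ClassicalGeometry.SympAutSemi
open Cfsg.Agent.ClassicalGeometry.Sp4Graph Cfsg.Agent.ClassicalGeometry.Sp4GraphAut

universe u

variable {F : Type u} [Field F]

/-- the coordinate-wise action of a field automorphism -/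
def fsm (φ : F ≃+* F) : semiSim 2 F :=
  ⟨{ toFun := fun v i => φ (v i)
     invFun := fun v i => φ.symm (v i)
     left_inv := fun v => by funext i; exact φ.symm_apply_apply _
     right_inv := fun v => by funext i; exact φ.apply_symm_apply _ }, φ, 1, one_ne_zero,
    fun u v => by funext i; exact map_add φ _ _, fun a v => by funext i; exact map_mul φ _ _, fun u v => by
      rw [one_mul]
      change sympForm 2 F (fun i => φ (u i)) (fun i => φ (v i)) = _
      rw [sympForm_eq_sum, sympForm_eq_sum]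
      simp only [map_sum, map_sub, map_mul]⟩

theorem fsm_apply (φ : F ≃+* F) (v : V4 F) (i : I4) : (fsm φ).1 v i = φ (v i) := rfl

theorem fsm_semi (φ : F ≃+* F) : IsSemi (fsm φ).1 φ 1 :=
  ⟨fun u v => by funext i; exact map_add φ _ _, fun a v => by funext i; exact map_mul φ _ _, fun u v => by
      rw [one_mul]
      change sympForm 2 F (fun i => φ (u i)) (fun i => φ (v i)) = _
      rw [sympForm_eq_sum, sympForm_eq_sum]
      simp only [map_sum, map_sub, map_mul]⟩

theorem conjHom_fsm (φ : F ≃+* F) (A : Sp4 F) (i j : I4) : (conjHom 2 F (fsm φ) A).1 i j = φ (A.1 i j) := by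
  have h1 := rho_conj_apply (g := fsm φ) (n := A) rfl (Pi.single j 1)
  have h2 : (fsm φ).1 (Pi.single j 1 : V4 F) = Pi.single j 1 := by
    funext k
    rw [fsm_apply]
    by_cases hk : k = j
    · subst hk; simp
    · simp [hk]
  rw [h2] at h1
  have h3 := congrFun h1 i
  rw [fsm_apply, rho_apply, rho_apply, Matrix.mulVec_single_one, Matrix.mulVec_single_one] at h3
  exact h3.symm

section char2

variable [CharP F 2] [Finite F]

theorem trace_conj (A X : Sp4 F) : ((A * X * A⁻¹ : Sp4 F) : Matrix I4 I4 F).trace = (X : Matrix I4 I4 F).trace := by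
  have h1 : ((A * X * A⁻¹ : Sp4 F) : Matrix I4 I4 F) = (A : Matrix I4 I4 F) * (X : Matrix I4 I4 F) *
      ((A⁻¹ : Sp4 F) : Matrix I4 I4 F) := rfl
  have h2 : ((A⁻¹ : Sp4 F) : Matrix I4 I4 F) * (A : Matrix I4 I4 F) = 1 := by
    have := congrArg (fun y : Sp4 F => (y : Matrix I4 I4 F)) (inv_mul_cancel A)
    exact this
  rw [h1, Matrix.trace_mul_cycle, h2, one_mul]

theorem graph_coe (A : Sp4 F) (i j : I4) : (graphEquiv F A).1 i j =
    A.1 (pa i) (pa j) * A.1 (pb i) (pb j) + A.1 (pa i) (pb j) * A.1 (pb i) (pa j) := by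
  rw [graphEquiv_apply, graphHom_coe, mn_apply]

theorem trace_graph_conjHom {g : semiSim 2 F} {φ : F ≃+* F} {l : F} (hl : l ≠ 0) (hg : IsSemi g.1 φ l) (X : Sp4 F) :
    (graphEquiv F (conjHom 2 F g X) : Matrix I4 I4 F).trace = φ (graphEquiv F X : Matrix I4 I4 F).trace := by
  have h1 : IsSemi (g * (fsm φ)⁻¹ : semiSim 2 F).1 (φ.symm.trans φ) (l * φ (φ.symm 1⁻¹)) :=
    hg.mul ((fsm_semi φ).inv one_ne_zero)
  obtain ⟨A, hA, -⟩ := exists_conj_of_linear (by simpa using hl) h1 (fun a => φ.apply_symm_apply a)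
  have h2 : conjHom 2 F g = MulAut.conj A * conjHom 2 F (fsm φ) := by
    rw [← hA, map_mul, map_inv, inv_mul_cancel_right]
  rw [h2, MulAut.mul_apply, MulAut.conj_apply, map_mul (graphEquiv F), map_mul (graphEquiv F), map_inv (graphEquiv F),
    trace_conj, Matrix.trace, Matrix.trace, map_sum]
  refine Finset.sum_congr rfl fun i _ => ?_
  rw [Matrix.diag_apply, Matrix.diag_apply, graph_coe, graph_coe]
  simp only [conjHom_fsm, map_add, map_mul]

theorem trace_graph_graph (X : Sp4 F) :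
    (graphEquiv F (graphEquiv F X) : Matrix I4 I4 F).trace = (X : Matrix I4 I4 F).trace ^ 2 := by
  have h1 : ∀ i, (graphEquiv F (graphEquiv F X)).1 i i = X.1 i i ^ 2 := by
    intro i
    rw [graphEquiv_apply, graphEquiv_apply]
    exact graphHom_graphHom X i i
  simp only [Matrix.trace, Matrix.diag_apply, Fintype.sum_sum_type, Fin.sum_univ_two, h1]
  have h2 : (2 : F) = 0 := CharTwo.two_eq_zero
  ring_nf
  simp [h2]

theorem exists_trace (a : F) : ∃ X : Sp4 F, (X : Matrix I4 I4 F).trace = a := by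
  have h2 : (2 : F) = 0 := CharTwo.two_eq_zero
  refine ⟨iota (⟨!![a, 1; 1, 0], ?_⟩, 1), ?_⟩
  · rw [Matrix.det_fin_two]
    simp
    exact CharTwo.neg_eq 1
  · rw [trace_iota]
    simp [Matrix.trace_fin_two]
    linear_combination h2

/-- **Traces.** -/
theorem trace_rel (hq : 4 ≤ Nat.card F) {δ : MulAut (Sp4 F)} (hδ : δ ∉ (conjHom 2 F).range) (h2 : ∀ X, δ (δ X) = X) :
    ∃ φ : F ≃+* F, (∀ a, φ (φ (a ^ 2)) = a) ∧ ∀ z, δ z = z →
      (z : Matrix I4 I4 F).trace = φ (graphEquiv F z : Matrix I4 I4 F).trace := by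
  obtain ⟨g, rfl⟩ := exists_graph hq hδ
  obtain ⟨φ, l, hl, hs⟩ := g.2
  refine ⟨φ, fun a => ?_, fun z hz => ?_⟩
  · obtain ⟨X, rfl⟩ := exists_trace a
    have h3 := congrArg (fun Y : Sp4 F => (Y : Matrix I4 I4 F).trace) (h2 X)
    simp only [MulAut.mul_apply] at h3
    rw [trace_conjHom hs, trace_graph_conjHom hl hs, trace_graph_graph] at h3
    exact h3
  · have h3 := congrArg (fun Y : Sp4 F => (Y : Matrix I4 I4 F).trace) hz
    simp only [MulAut.mul_apply] at h3
    rw [trace_conjHom hs] at h3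
    exact h3.symm

theorem trace_graph_iota (p : SL2 F × SL2 F) :
    (graphEquiv F (iota p) : Matrix I4 I4 F).trace = p.1.1.trace * p.2.1.trace := by
  simp only [Matrix.trace, Matrix.diag_apply, Fintype.sum_sum_type, Fin.sum_univ_two, graph_coe, pa_inl, pa_inr,
    pb_inl0, pb_inl1, pb_inr0, pb_inr1, iota_coe]
  simp [blk]
  ring

/-! ### the field -/

theorem exists_two_pow (σ : F ≃+* F) : ∃ n : ℕ, ∀ a, σ a = a ^ (2 ^ n) := by
  have : Fact (Nat.Prime 2) := ⟨Nat.prime_two⟩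
  let _ : Algebra (ZMod 2) F := ZMod.algebra F 2
  have hF := Fintype.ofFinite F
  have : FiniteDimensional (ZMod 2) F := Module.Finite.of_finite
  let σ' : F ≃ₐ[ZMod 2] F := AlgEquiv.ofRingEquiv (f := σ) (fun r => by
    have h1 : (σ : F →+* F).comp (algebraMap (ZMod 2) F) = algebraMap (ZMod 2) F := Subsingleton.elim _ _
    exact DFunLike.congr_fun h1 r)
  obtain ⟨⟨i, hi⟩, hi2⟩ := (FiniteField.bijective_frobeniusAlgEquivOfAlgebraic_pow (ZMod 2) F).2 σ'
  have h1 : ∀ (k : ℕ) (x : F), (FiniteField.frobeniusAlgEquivOfAlgebraic (ZMod 2) F ^ k) x = x ^ (2 ^ k) := by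
    intro k
    induction k with
    | zero => intro x; simp
    | succ k ih =>
      intro x
      rw [pow_succ', AlgEquiv.mul_apply, ih, FiniteField.coe_frobeniusAlgEquivOfAlgebraic]
      show (x ^ _) ^ _ = _
      rw [← pow_mul, ZMod.card, ← pow_succ]
  refine ⟨i, fun a => ?_⟩
  rw [← h1]
  have h3 : (FiniteField.frobeniusAlgEquivOfAlgebraic (ZMod 2) F ^ i) a = σ' a := by rw [← hi2]
  rw [h3]
  rfl

theorem exists_as_pow (A : F) (n : ℕ) : ∃ B : F, B ^ 2 + B = A + A ^ (2 ^ n) := by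
  have h2 : (2 : F) = 0 := CharTwo.two_eq_zero
  induction n with
  | zero =>
    refine ⟨0, ?_⟩
    rw [pow_zero, pow_one]
    linear_combination (-A) * h2
  | succ n ih =>
    obtain ⟨B, hB⟩ := ih
    refine ⟨B + A ^ (2 ^ n), ?_⟩
    rw [pow_succ 2 n, pow_mul]
    linear_combination hB + (B * A ^ (2 ^ n) + A ^ (2 ^ n)) * h2

theorem exists_as (σ : F ≃+* F) (A : F) : ∃ B : F, B ^ 2 + B = A + σ A := by
  obtain ⟨n, hn⟩ := exists_two_pow σ
  rw [hn]
  exact exists_as_pow A n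

/-- **The computation.** -/
theorem exists_root {φ : F ≃+* F} (hφ : ∀ a, φ (φ (a ^ 2)) = a) {s t : F} (hst : s ≠ t)
    (h : s + t = φ (s * t)) : ∃ x : F, x ^ 2 + s * x + 1 = 0 := by
  have h22 : (2 : F) = 0 := CharTwo.two_eq_zero
  have hadd : ∀ a b : F, a = b ↔ a + b = 0 := fun a b => CharTwo.add_eq_zero.symm
  obtain ⟨P, hP⟩ : ∃ P, P = s + t := ⟨_, rfl⟩
  have hP0 : P ≠ 0 := by
    intro h0
    rw [h0] at hP
    exact hst ((hadd s t).2 hP.symm)
  obtain ⟨y, hy⟩ := exists_sqrt (s / P)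
  have hsy : s = P * y ^ 2 := by rw [hy, mul_div_cancel₀ _ hP0]
  have hty : t = P * (1 + y) ^ 2 := by
    linear_combination (-1 : F) * hP + (-1 : F) * hsy - (P * y ^ 2 + P * y) * h22
  obtain ⟨Y, hY⟩ : ∃ Y, Y = φ y := ⟨_, rfl⟩
  have h1 : φ P ^ 2 = s * t := by
    rw [hP, h]
    have h2 := hφ (s * t)
    rw [map_pow, map_pow] at h2
    exact h2
  have h3 : φ P = P * (y * (1 + y)) := by
    apply CharTwo.sq_injective
    change φ P ^ 2 = (P * (y * (1 + y))) ^ 2
    rw [h1, hsy, hty]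
    ring
  have h4 : φ (φ P) = P * (y * (1 + y)) * (Y * (1 + Y)) := by
    rw [h3, map_mul, map_mul, map_add, map_one, h3, hY]
  have h5 : P = (P * (y * (1 + y)) * (Y * (1 + Y))) ^ 2 := by
    rw [← h4]
    have h2 := hφ P
    rw [map_pow, map_pow] at h2
    exact h2.symm
  have h6 : P * (y * (1 + y)) ^ 2 * (Y * (1 + Y)) ^ 2 = 1 := by
    apply mul_left_cancel₀ hP0
    linear_combination (-1 : F) * h5
  obtain ⟨w, hw⟩ : ∃ w, w = (1 + y) * (Y * (1 + Y)) := ⟨_, rfl⟩
  have h7 : s * w ^ 2 = 1 := by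
    rw [hw, hsy]
    linear_combination h6
  have h8 : (φ (y * Y)) ^ 2 = Y ^ 2 * y := by
    have h2 := hφ y
    rw [map_pow, map_pow] at h2
    rw [map_mul, mul_pow, ← hY, hY, h2]
  obtain ⟨B, hB⟩ := exists_as (φ.trans (frobeniusEquiv F 2)) (y * Y)
  have h9 : (φ.trans (frobeniusEquiv F 2)) (y * Y) = Y ^ 2 * y := by
    rw [← h8]
    rfl
  rw [h9] at hB
  obtain ⟨u, hu⟩ : ∃ u, u = Y + B := ⟨_, rfl⟩
  have h10 : u ^ 2 + u = w := by
    rw [hu, hw]
    linear_combination hB + (Y * B) * h22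
  refine ⟨s * u ^ 4, ?_⟩
  have h11 : (u ^ 2 + u) ^ 4 = u ^ 8 + u ^ 4 := by
    linear_combination (2 * u ^ 7 + 3 * u ^ 6 + 2 * u ^ 5) * h22
  have h12 : s ^ 2 * w ^ 4 = 1 := by linear_combination (s * w ^ 2 + 1) * h7
  linear_combination h12 + h22 - s ^ 2 * h11 + s ^ 2 * ((u ^ 2 + u) ^ 3 + (u ^ 2 + u) ^ 2 * w + (u ^ 2 + u) * w ^ 2 + w ^ 3) * h10

/-! ### Diagonalisation -/

omit [Finite F] in
theorem iota_apply (p : SL2 F × SL2 F) (x : V4 F) : rho 2 F (iota p) x =
    (p.1.1 0 0 * x (.inl 0) + p.1.1 0 1 * x (.inr 0)) • e1 F + (p.2.1 0 0 * x (.inl 1) + p.2.1 0 1 * x (.inr 1)) • e2 F +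
    (p.1.1 1 0 * x (.inl 0) + p.1.1 1 1 * x (.inr 0)) • f1 F + (p.2.1 1 0 * x (.inl 1) + p.2.1 1 1 * x (.inr 1)) • f2 F :=
  blk_mulVec _ _ x

omit [Finite F] in
theorem exists_sl {a b c d : F} (h : a * d + b * c = 1) :
    ∃ g : SL2 F, g.1 0 0 = a ∧ g.1 0 1 = c ∧ g.1 1 0 = b ∧ g.1 1 1 = d := by
  have h22 : (2 : F) = 0 := CharTwo.two_eq_zero
  refine ⟨⟨!![a, c; b, d], ?_⟩, rfl, rfl, rfl, rfl⟩
  rw [Matrix.det_fin_two]
  simp
  linear_combination h - (b * c) * h22

omit [Finite F] in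
theorem exists_iota {z : Sp4 F} {x y : V4 F} (hxy : sympForm 2 F x y = 1)
    (hzx : rho 2 F z x ∈ Submodule.span F {x, y}) (hzy : rho 2 F z y ∈ Submodule.span F {x, y}) :
    ∃ (k : Sp4 F) (p : SL2 F × SL2 F), z = k * iota p * k⁻¹ := by
  have h22 : (2 : F) = 0 := CharTwo.two_eq_zero
  obtain ⟨a, b, hab⟩ := Submodule.mem_span_pair.1 hzx
  obtain ⟨c, d, hcd⟩ := Submodule.mem_span_pair.1 hzy
  obtain ⟨w, w', h1, h2, h3, h4, h5⟩ := exists_rest hxy
  have hyx : sympForm 2 F y x = 1 := by rw [form_symm, hxy]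
  have hw'w : sympForm 2 F w' w = 1 := by rw [form_symm, h5]
  have hdet : a * d + b * c = 1 := by
    have := sympForm_rho z x y
    rw [← hab, ← hcd, hxy] at this
    simp only [sympForm_add_left, sympForm_add_right, sympForm_smul_left, sympForm_smul_right, sympForm_self, hxy,
      hyx] at this
    linear_combination this
  have hX : rho 2 F z (d • x + b • y) = x := by
    rw [rho_add, rho_smul, rho_smul, ← hab, ← hcd]
    funext i
    simp only [Pi.add_apply, Pi.smul_apply, smul_eq_mul]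
    linear_combination (x i) * hdet + (b * d * y i) * h22
  have hY : rho 2 F z (c • x + a • y) = y := by
    rw [rho_add, rho_smul, rho_smul, ← hab, ← hcd]
    funext i
    simp only [Pi.add_apply, Pi.smul_apply, smul_eq_mul]
    linear_combination (y i) * hdet + (a * c * x i) * h22
  have hXw : ∀ u, sympForm 2 F x u = 0 → sympForm 2 F y u = 0 → sympForm 2 F x (rho 2 F z u) = 0 := by
    intro u hu hu'
    rw [← hX, sympForm_rho, sympForm_add_left, sympForm_smul_left, sympForm_smul_left, hu, hu', mul_zero, mul_zero,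
      add_zero]
  have hYw : ∀ u, sympForm 2 F x u = 0 → sympForm 2 F y u = 0 → sympForm 2 F y (rho 2 F z u) = 0 := by
    intro u hu hu'
    rw [← hY, sympForm_rho, sympForm_add_left, sympForm_smul_left, sympForm_smul_left, hu, hu', mul_zero, mul_zero,
      add_zero]
  have hc1 := coord hxy h1 h2 h3 h4 h5 (rho 2 F z w)
  have hc2 := coord hxy h1 h2 h3 h4 h5 (rho 2 F z w')
  rw [hXw w h1 h2, hYw w h1 h2, zero_smul, zero_smul, zero_add, zero_add] at hc1
  rw [hXw w' h3 h4, hYw w' h3 h4, zero_smul, zero_smul, zero_add, zero_add] at hc2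
  obtain ⟨a', ha'⟩ : ∃ t, t = sympForm 2 F w' (rho 2 F z w) := ⟨_, rfl⟩
  obtain ⟨b', hb'⟩ : ∃ t, t = sympForm 2 F w (rho 2 F z w) := ⟨_, rfl⟩
  obtain ⟨c', hc'⟩ : ∃ t, t = sympForm 2 F w' (rho 2 F z w') := ⟨_, rfl⟩
  obtain ⟨d', hd'⟩ : ∃ t, t = sympForm 2 F w (rho 2 F z w') := ⟨_, rfl⟩
  rw [← ha', ← hb'] at hc1
  rw [← hc', ← hd'] at hc2
  have hdet' : a' * d' + b' * c' = 1 := by
    have := sympForm_rho z w w'
    rw [hc1, hc2, h5] at this
    simp only [sympForm_add_left, sympForm_add_right, sympForm_smul_left, sympForm_smul_right, sympForm_self, h5,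
      hw'w] at this
    linear_combination this
  obtain ⟨k, hk⟩ := exists_sp (a := x) (b := w) (c := y) (d := w') h1 hxy h3 (by rw [form_symm, h2]) h5 h4
  obtain ⟨p, p1, p2, p3, p4⟩ := exists_sl hdet
  obtain ⟨p', p1', p2', p3', p4'⟩ := exists_sl hdet'
  refine ⟨k, (p, p'), eq_mul_inv_iff_mul_eq.2 ?_⟩
  apply rho_injective
  ext1 v
  rw [map_mul, map_mul, Equiv.Perm.mul_apply, Equiv.Perm.mul_apply, iota_apply, hk, hk, rho_add, rho_add, rho_add,
    rho_smul, rho_smul, rho_smul, rho_smul, ← hab, ← hcd, hc1, hc2]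
  simp only [p1, p2, p3, p4, p1', p2', p3', p4']
  funext i
  simp [e1, e2, f1, f2]
  ring

/-- the diagonal matrices -/
def dgl (x : Fˣ) : SL2 F := ⟨!![(x : F), 0; 0, (x⁻¹ : Fˣ)], by rw [Matrix.det_fin_two]; simp⟩

omit [Finite F] in
theorem exists_dgl (g : SL2 F) {x : F} (hx : x ^ 2 + g.1.trace * x + 1 = 0) (ht : g.1.trace ≠ 0) :
    ∃ (k : SL2 F) (u : Fˣ), g = k * dgl u * k⁻¹ := by
  have h22 : (2 : F) = 0 := CharTwo.two_eq_zero
  have hx0 : x ≠ 0 := by
    rintro rfl
    simp at hx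
  have hev : ∀ y : F, y ^ 2 + g.1.trace * y + 1 = 0 → ∃ v : Fin 2 → F, v ≠ 0 ∧ g.1 *ᵥ v = y • v := by
    intro y hy
    have h1 : (y • (1 : Matrix (Fin 2) (Fin 2) F) + (1 : F) • g.1).det = 0 := by
      rw [det_comb]
      linear_combination hy
    obtain ⟨v, hv, hv'⟩ := Matrix.exists_mulVec_eq_zero_iff.2 h1
    refine ⟨v, hv, ?_⟩
    rw [Matrix.add_mulVec, Matrix.smul_mulVec, Matrix.smul_mulVec, Matrix.one_mulVec, one_smul] at hv'
    funext i
    have h2 := congrFun hv' i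
    rw [Pi.zero_apply, Pi.add_apply] at h2
    exact (CharTwo.add_eq_zero.1 h2).symm
  obtain ⟨v, hv, hgv⟩ := hev x hx
  have hxi : x⁻¹ = g.1.trace + x := by
    apply mul_left_cancel₀ hx0
    rw [mul_inv_cancel₀ hx0]
    linear_combination hx - (x ^ 2 + g.1.trace * x) * h22
  obtain ⟨v', hv', hgv'⟩ := hev x⁻¹ (by
    rw [hxi]
    linear_combination hx + (g.1.trace ^ 2 + g.1.trace * x) * h22)
  have hne : x⁻¹ ≠ x := by
    rw [hxi]
    intro h
    exact ht (add_eq_right.1 h)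
  obtain ⟨D, hD⟩ : ∃ D, D = v 0 * v' 1 - v' 0 * v 1 := ⟨_, rfl⟩
  have hD0 : D ≠ 0 := by
    intro h0
    rw [hD] at h0
    -- `v' 1 • v = v 1 • v'`
    have h1 : ∀ i, v' 1 * v i = v 1 * v' i :=
      Fin.forall_fin_two.2 ⟨by linear_combination h0, mul_comm _ _⟩
    have h2 : ∀ i, v' 0 * v i = v 0 * v' i :=
      Fin.forall_fin_two.2 ⟨mul_comm _ _, by linear_combination -h0⟩
    have key : ∀ a b : F, (∀ i, a * v i = b * v' i) → a = 0 ∧ b = 0 := by
      intro a b hab
      have h3 : ∀ i, a * (x * v i) = b * (x⁻¹ * v' i) := by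
        intro i
        have e1' : a • v = b • v' := funext hab
        have e2' := congrArg (fun u => g.1 *ᵥ u) e1'
        simp only [Matrix.mulVec_smul, hgv, hgv'] at e2'
        exact congrFun e2' i
      have h4 : ∀ i, b * (x⁻¹ - x) * v' i = 0 := by
        intro i
        linear_combination x * hab i - h3 i
      have h5 : b = 0 := by
        by_contra hb
        apply hv'
        funext i
        rcases mul_eq_zero.1 (h4 i) with h | h
        · rcases mul_eq_zero.1 h with h | h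
          · exact absurd h hb
          · exact absurd (sub_eq_zero.1 h) hne
        · exact h
      refine ⟨?_, h5⟩
      by_contra ha
      apply hv
      funext i
      have := hab i
      rw [h5, zero_mul] at this
      exact (mul_eq_zero.1 this).resolve_left ha
    obtain ⟨h3, -⟩ := key _ _ h1
    obtain ⟨h4, -⟩ := key _ _ h2
    apply hv'
    funext i
    fin_cases i
    · exact h4
    · exact h3
  have hg : ∀ i, g.1 i 0 * v 0 + g.1 i 1 * v 1 = x * v i := by
    intro i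
    have := congrFun hgv i
    simpa [Matrix.mulVec, dotProduct, Fin.sum_univ_two] using this
  have hg' : ∀ i, g.1 i 0 * v' 0 + g.1 i 1 * v' 1 = x⁻¹ * v' i := by
    intro i
    have := congrFun hgv' i
    simpa [Matrix.mulVec, dotProduct, Fin.sum_univ_two] using this
  obtain ⟨k, k1, k2, k3, k4⟩ := exists_sl (a := v 0) (b := v 1) (c := D⁻¹ * v' 0) (d := D⁻¹ * v' 1) (by
    have h3 : D⁻¹ * D = 1 := inv_mul_cancel₀ hD0
    rw [hD] at h3 ⊢
    linear_combination h3 + (v 1 * ((v 0 * v' 1 - v' 0 * v 1)⁻¹ * v' 0)) * h22)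
  refine ⟨k, Units.mk0 x hx0, eq_mul_inv_iff_mul_eq.2 ?_⟩
  apply Subtype.ext
  change g.1 * k.1 = k.1 * (dgl (Units.mk0 x hx0)).1
  ext i j
  fin_cases i <;> fin_cases j
  · simp [dgl, Matrix.mul_apply, Fin.sum_univ_two, k1, k2, k3, k4]
    linear_combination hg 0
  · simp [dgl, Matrix.mul_apply, Fin.sum_univ_two, k1, k2, k3, k4]
    linear_combination D⁻¹ * hg' 0
  · simp [dgl, Matrix.mul_apply, Fin.sum_univ_two, k1, k2, k3, k4]
    linear_combination hg 1
  · simp [dgl, Matrix.mul_apply, Fin.sum_univ_two, k1, k2, k3, k4]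
    linear_combination D⁻¹ * hg' 1

/-- the split torus -/
def tor (a b : Fˣ) : Sp4 F := iota (dgl a, dgl b)

omit [Finite F] in
theorem tor_apply (a b : Fˣ) (x : V4 F) : rho 2 F (tor a b) x =
    ((a : F) * x (.inl 0)) • e1 F + ((b : F) * x (.inl 1)) • e2 F + (((a⁻¹ : Fˣ) : F) * x (.inr 0)) • f1 F +
      (((b⁻¹ : Fˣ) : F) * x (.inr 1)) • f2 F := by
  rw [tor, iota_apply]
  simp [dgl]

omit [Finite F] in
theorem trace_dgl (a : Fˣ) : (dgl a).1.trace = a + (a⁻¹ : Fˣ) := by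
  simp [dgl, Matrix.trace_fin_two]

omit [Finite F] in
theorem iota_quad {p : SL2 F × SL2 F} (h : p.1.1.trace = p.2.1.trace) (v : V4 F) :
    rho 2 F (iota p) (rho 2 F (iota p) v) + p.1.1.trace • rho 2 F (iota p) v + v = 0 := by
  have h22 : (2 : F) = 0 := CharTwo.two_eq_zero
  have h1 := ch2 p.1
  have h2 := ch2 p.2
  rw [← h] at h2
  have e : ∀ (g : SL2 F) (s : F), g.1 * g.1 = s • g.1 + 1 → ∀ i j, g.1 i 0 * g.1 0 j + g.1 i 1 * g.1 1 j =
      s * g.1 i j + if i = j then 1 else 0 := by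
    intro g s hg i j
    have := congrFun (congrFun hg i) j
    rw [Matrix.mul_apply, Fin.sum_univ_two, Matrix.add_apply, Matrix.smul_apply, Matrix.one_apply] at this
    exact this
  have a00 := e _ _ h1 0 0
  have a01 := e _ _ h1 0 1
  have a10 := e _ _ h1 1 0
  have a11 := e _ _ h1 1 1
  have b00 := e _ _ h2 0 0
  have b01 := e _ _ h2 0 1
  have b10 := e _ _ h2 1 0
  have b11 := e _ _ h2 1 1
  simp only [if_true, zero_ne_one, one_ne_zero, if_false, add_zero] at a00 a01 a10 a11 b00 b01 b10 b11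
  funext i
  rw [iota_apply, iota_apply]
  rcases i with i | i <;> fin_cases i
  · simp [e1, e2, f1, f2]
    linear_combination v (.inl 0) * a00 + v (.inr 0) * a01 +
      (p.1.1.trace * (p.1.1 0 0 * v (.inl 0) + p.1.1 0 1 * v (.inr 0)) + v (.inl 0)) * h22
  · simp [e1, e2, f1, f2]
    linear_combination v (.inl 1) * b00 + v (.inr 1) * b01 +
      (p.1.1.trace * (p.2.1 0 0 * v (.inl 1) + p.2.1 0 1 * v (.inr 1)) + v (.inl 1)) * h22
  · simp [e1, e2, f1, f2]
    linear_combination v (.inl 0) * a10 + v (.inr 0) * a11 +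
      (p.1.1.trace * (p.1.1 1 0 * v (.inl 0) + p.1.1 1 1 * v (.inr 0)) + v (.inr 0)) * h22
  · simp [e1, e2, f1, f2]
    linear_combination v (.inl 1) * b10 + v (.inr 1) * b11 +
      (p.1.1.trace * (p.2.1 1 0 * v (.inl 1) + p.2.1 1 1 * v (.inr 1)) + v (.inr 1)) * h22

end char2

end Cfsg.Agent.H332.RC
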